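import Mathlib
import Cfsg.Agent.H511.SelfNormLocal

/-!
# Groups in which every non-abelian subgroup is self-normalizing: solvable or simple
-/

set_option autoImplicit false
set_option linter.style.haveILetI false
set_option linter.unusedSectionVars false

open scoped Pointwise

namespace Cfsg.Agent.H511

open Subgroup

universe u

section

variable {G : Type u} [Group G] [Finite G]

theorem isSolvable_of_comm' {H : Subgroup G} (h : IsMulCommutative H) : Group.IsSolvable H :=
  Group.isSolvable_of_comm fun a b => h.is_comm.comm a b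

/-- Case 1: all proper normal subgroups are central. -/
theorem simple_of_central (h : SelfNorm G) (hns : ¬ Group.IsSolvable G)
    (hperf : commutator G = ⊤)
    (hcen : ∀ N : Subgroup G, N.Normal → N ≠ ⊤ → N ≤ Subgroup.center G)
    (hsub : ∀ H : Subgroup G, H ≠ ⊤ → Group.IsSolvable H ∨ IsSimpleGroup H) :
    IsSimpleGroup G := by
  haveI : Nontrivial G := by
    by_contra hc
    rw [not_nontrivial_iff_subsingleton] at hc
    exact hns inferInstance
  constructor
  intro N hN
  by_contra hcon
  push Not at hcon
  obtain ⟨hNb, hNt⟩ := hcon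
  have hNc := hcen N hN hNt
  have h1 : Nat.card N ≠ 1 := by
    intro h2
    exact hNb (Subgroup.card_eq_one.1 h2)
  obtain ⟨p, hp, hpN⟩ := Nat.exists_prime_and_dvd h1
  haveI : Fact p.Prime := ⟨hp⟩
  obtain ⟨z, hz⟩ := exists_prime_orderOf_dvd_card' p hpN
  obtain ⟨P⟩ : Nonempty (Sylow p G) := inferInstance
  have hPc := comm_sylow h hns hcen hsub P
  have hzc : (z : G) ∈ Subgroup.center G := hNc z.2
  have hzo : orderOf (z : G) = p := by rw [Subgroup.orderOf_coe]; exact hz
  -- z ∈ P
  have hzP : (z : G) ∈ (P : Subgroup G) := by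
    have hpz : IsPGroup p (Subgroup.zpowers (z : G)) := by
      apply IsPGroup.of_card (n := 1)
      rw [Nat.card_zpowers, hzo, pow_one]
    haveI : (Subgroup.zpowers (z : G)).Normal := by
      constructor
      rintro _ ⟨i, rfl⟩ g
      have h3 : g * (z : G) ^ i * g⁻¹ = (z : G) ^ i := by
        rw [Subgroup.mem_center_iff.1 ((Subgroup.center G).zpow_mem hzc i) g]
        group
      change g * (z : G) ^ i * g⁻¹ ∈ _
      rw [h3]
      exact ⟨i, rfl⟩
    have hsup : IsPGroup p ((P : Subgroup G) ⊔ Subgroup.zpowers (z : G) : Subgroup G) :=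
      P.2.to_sup_of_normal_right hpz
    have h9 := P.3 hsup le_sup_left
    rw [← h9]
    exact Subgroup.mem_sup_right (Subgroup.mem_zpowers _)
  letI : CommGroup P := { (inferInstance : Group P) with mul_comm := hPc.is_comm.comm }
  have h5 : (⟨z, hzP⟩ : P) ^ (P : Subgroup G).index = 1 :=
    Cfsg.Agent.Transfer.CentralTransfer.map_pow_index_eq_one_of_perfect hperf
      (MonoidHom.id P) ⟨z, hzP⟩ hzc
  have h6 : orderOf (⟨z, hzP⟩ : P) ∣ (P : Subgroup G).index := orderOf_dvd_of_pow_eq_one h5
  have h7 : orderOf (⟨z, hzP⟩ : P) = p := by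
    rw [← Subgroup.orderOf_coe]
    exact hzo
  rw [h7] at h6
  exact P.not_dvd_index h6

/-- A nilpotent group with the property which is not abelian is a `p`-group. -/
theorem isPGroup_of_nilpotent (h : SelfNorm G) (hn : Group.IsNilpotent G)
    (hc : ¬ IsMulCommutative (⊤ : Subgroup G)) :
    ∃ p : ℕ, p.Prime ∧ IsPGroup p G := by
  by_contra hcon
  push Not at hcon
  apply hc
  rw [comm_top]
  -- every Sylow subgroup is abelian
  have hsyl : ∀ (p : ℕ) [Fact p.Prime] (P : Sylow p G), IsMulCommutative (P : Subgroup G) := by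
    intro p hp P
    by_contra hPc
    haveI hPn : (P : Subgroup G).Normal := by
      have := (Group.isNilpotent_of_finite_tfae (G := G)).out 0 3
      exact this.1 hn p hp P
    have h1 := h.eq_top (P : Subgroup G) hPc
    apply hcon p hp.out
    have h2 := P.2
    rw [h1] at h2
    exact h2.of_equiv Subgroup.topEquiv
  -- prime-power-order elements commute
  intro a b
  -- use the decomposition of nilpotent groups as a product of its Sylow subgroups
  have hpp : ∀ (p q : ℕ) (hp : p.Prime) (hq : q.Prime) (x y : G) (i j : ℕ), x ^ p ^ i = 1 →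
      y ^ q ^ j = 1 → Commute x y := by
    intro p q hp hq x y i j hx hy
    by_cases hpq : p = q
    · subst hpq
      haveI : Fact p.Prime := ⟨hp⟩
      obtain ⟨P⟩ : Nonempty (Sylow p G) := inferInstance
      haveI hPn : (P : Subgroup G).Normal := by
        have := (Group.isNilpotent_of_finite_tfae (G := G)).out 0 3
        exact this.1 hn p ⟨hp⟩ P
      have hmem : ∀ (z : G) (k : ℕ), z ^ p ^ k = 1 → z ∈ (P : Subgroup G) := by
        intro z k hz
        have hpz : IsPGroup p (Subgroup.zpowers z) := by
          rintro ⟨_, ⟨n, rfl⟩⟩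
          refine ⟨k, Subtype.ext ?_⟩
          change (z ^ n) ^ p ^ k = 1
          rw [← zpow_natCast, ← zpow_mul, mul_comm, zpow_mul, zpow_natCast, hz, one_zpow]
        obtain ⟨P', hP'⟩ := hpz.exists_le_sylow
        haveI := Sylow.unique_of_normal P hPn
        rw [Subsingleton.elim P' P] at hP'
        exact hP' (Subgroup.mem_zpowers z)
      exact comm_iff.1 (hsyl p P) x (hmem x i hx) y (hmem y j hy)
    · exact Cfsg.Agent.Lib.NilpotentCoprime.commute_of_pow_eq_one
        (Nat.Coprime.pow_left i (Nat.Coprime.pow_right j ((Nat.coprime_primes hp hq).2 hpq))) hx hy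
  -- the centralizer of a prime power element is everything, by induction on order
  have key : ∀ (n : ℕ) (x : G), orderOf x = n → ∀ (q : ℕ) (hq : q.Prime) (y : G) (j : ℕ),
      y ^ q ^ j = 1 → Commute x y := by
    intro n
    induction n using Nat.strong_induction_on with
    | _ n ih =>
      intro x hx q hq y j hy
      by_cases hn1 : n = 1
      · subst hn1
        rw [orderOf_eq_one_iff] at hx
        rw [hx]
        exact Commute.one_left y
      · obtain ⟨p, hp, hpn⟩ := Nat.exists_prime_and_dvd hn1
        have hn0 : n ≠ 0 := by rw [← hx]; exact (orderOf_pos x).ne'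
        set k := n.factorization p with hk
        set m := n / p ^ k with hm
        have hkm : p ^ k * m = n := Nat.ordProj_mul_ordCompl_eq_self n p
        have hcop : (p ^ k).Coprime m := Nat.Coprime.pow_left k (Nat.coprime_ordCompl hp hn0)
        have hk0 : k ≠ 0 := by
          intro h0
          have := (Nat.Prime.factorization_pos_of_dvd hp hn0 hpn)
          omega
        have hmn : m < n := by
          rw [← hkm]
          have h1 : 1 < p ^ k := Nat.one_lt_pow hk0 hp.one_lt
          have hm0 : 0 < m := by
            rcases Nat.eq_zero_or_pos m with h0 | h0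
            · rw [h0, mul_zero] at hkm
              exact absurd hkm.symm hn0
            · exact h0
          nlinarith
        -- x = (x ^ (p ^ k)) ^ u * (x ^ m) ^ v
        have hb : Int.gcd (p ^ k : ℕ) m = 1 := by
          rw [Int.gcd_natCast_natCast]; exact hcop
        have hbez := Int.gcd_eq_gcd_ab (p ^ k : ℕ) (m : ℕ)
        rw [hb] at hbez
        set u := Int.gcdA (p ^ k : ℕ) m
        set v := Int.gcdB (p ^ k : ℕ) m
        have hxe : x = (x ^ (p ^ k)) ^ u * (x ^ m) ^ v := by
          rw [← zpow_natCast x (p ^ k), ← zpow_natCast x m, ← zpow_mul, ← zpow_mul, ← zpow_add,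
            ← hbez]
          simp
        have h1 : Commute (x ^ (p ^ k)) y := by
          have h2 : orderOf (x ^ p ^ k) = m := by
            rw [orderOf_pow, hx, Nat.gcd_eq_right (Dvd.intro _ hkm), ← hkm,
              Nat.mul_div_cancel_left _ (pow_pos hp.pos k)]
          exact ih m hmn _ h2 q hq y j hy
        have h2 : Commute (x ^ m) y := by
          apply hpp p q hp hq _ _ k j _ hy
          rw [← pow_mul, mul_comm, hkm, ← hx, pow_orderOf_eq_one]
        rw [hxe]
        exact (h1.zpow_left u).mul_left (h2.zpow_left v)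
  have key2 : ∀ (n : ℕ) (x : G), orderOf x = n → ∀ y : G, Commute x y := by
    intro n
    induction n using Nat.strong_induction_on with
    | _ n ih =>
      intro x hx y
      by_cases hn1 : n = 1
      · subst hn1
        rw [orderOf_eq_one_iff] at hx
        rw [hx]
        exact Commute.one_left y
      · obtain ⟨p, hp, hpn⟩ := Nat.exists_prime_and_dvd hn1
        have hn0 : n ≠ 0 := by rw [← hx]; exact (orderOf_pos x).ne'
        set k := n.factorization p with hk
        set m := n / p ^ k with hm
        have hkm : p ^ k * m = n := Nat.ordProj_mul_ordCompl_eq_self n p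
        have hcop : (p ^ k).Coprime m := Nat.Coprime.pow_left k (Nat.coprime_ordCompl hp hn0)
        have hk0 : k ≠ 0 := by
          intro h0
          have := (Nat.Prime.factorization_pos_of_dvd hp hn0 hpn)
          omega
        have hmn : m < n := by
          rw [← hkm]
          have h1 : 1 < p ^ k := Nat.one_lt_pow hk0 hp.one_lt
          have hm0 : 0 < m := by
            rcases Nat.eq_zero_or_pos m with h0 | h0
            · rw [h0, mul_zero] at hkm
              exact absurd hkm.symm hn0
            · exact h0
          nlinarith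
        have hb : Int.gcd (p ^ k : ℕ) m = 1 := by
          rw [Int.gcd_natCast_natCast]; exact hcop
        have hbez := Int.gcd_eq_gcd_ab (p ^ k : ℕ) (m : ℕ)
        rw [hb] at hbez
        set u := Int.gcdA (p ^ k : ℕ) m
        set v := Int.gcdB (p ^ k : ℕ) m
        have hxe : x = (x ^ (p ^ k)) ^ u * (x ^ m) ^ v := by
          rw [← zpow_natCast x (p ^ k), ← zpow_natCast x m, ← zpow_mul, ← zpow_mul, ← zpow_add,
            ← hbez]
          simp
        have h1 : Commute (x ^ (p ^ k)) y := by
          have h2 : orderOf (x ^ p ^ k) = m := by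
            rw [orderOf_pow, hx, Nat.gcd_eq_right (Dvd.intro _ hkm), ← hkm,
              Nat.mul_div_cancel_left _ (pow_pos hp.pos k)]
          exact ih m hmn _ h2 y
        have h2 : Commute (x ^ m) y := by
          apply Commute.symm
          apply key _ y rfl p hp (x ^ m) k
          rw [← pow_mul, mul_comm, hkm, ← hx, pow_orderOf_eq_one]
        rw [hxe]
        exact (h1.zpow_left u).mul_left (h2.zpow_left v)
  exact (key2 _ a rfl b).eq

/-- Case 2: some proper normal subgroup is not central. -/
theorem not_of_noncentral (h : SelfNorm G) (hns : ¬ Group.IsSolvable G)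
    (hperf : commutator G = ⊤)
    {N : Subgroup G} (hN : N.Normal) (hNt : N ≠ ⊤) (hNc : ¬ N ≤ Subgroup.center G) : False := by
  have hNab : IsMulCommutative N := h.comm_of_normal N hNt
  set M : Subgroup G := Subgroup.centralizer (N : Set G) with hM
  haveI hMn : M.Normal := by rw [hM]; infer_instance
  have hNM : N ≤ M := by
    intro y hy
    rw [hM, Subgroup.mem_centralizer_iff]
    intro z hz
    exact comm_iff.1 hNab z hz y hy
  have hMt : M ≠ ⊤ := by
    intro hc
    apply hNc
    intro y hy
    rw [Subgroup.mem_center_iff]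
    intro g
    have : g ∈ M := by rw [hc]; exact Subgroup.mem_top _
    rw [hM, Subgroup.mem_centralizer_iff] at this
    exact (this y hy).symm
  have hMab : IsMulCommutative M := h.comm_of_normal M hMt
  have hMC : ∀ g : G, (∀ y ∈ M, g * y = y * g) → g ∈ M := by
    intro g hg
    rw [hM, Subgroup.mem_centralizer_iff]
    intro y hy
    exact (hg y (hNM hy)).symm
  have hM1 : M ≠ ⊥ := by
    intro hc
    apply hNc
    intro y hy
    have := hNM hy
    rw [hc, Subgroup.mem_bot] at this
    rw [this]
    exact one_mem _
  -- two primes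
  haveI hMs : Group.IsSolvable M := isSolvable_of_comm' hMab
  have hquot : ¬ Group.IsSolvable (G ⧸ M) := by
    intro hc
    exact hns ((Group.isSolvable_iff_subgroup_quotient M).2 ⟨hMs, hc⟩)
  have hnotp : ∀ r : ℕ, r.Prime → ¬ IsPGroup r (G ⧸ M) := by
    intro r hr hc
    haveI : Fact r.Prime := ⟨hr⟩
    haveI := hc.isNilpotent
    exact hquot inferInstance
  obtain ⟨r, hr, hrdvd, hrM⟩ : ∃ r : ℕ, r.Prime ∧ r ∣ Nat.card (G ⧸ M) ∧ ¬ IsPGroup r M := by
    haveI : Nontrivial (G ⧸ M) := by
      by_contra hc
      rw [not_nontrivial_iff_subsingleton] at hc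
      exact hquot inferInstance
    have h1 : Nat.card (G ⧸ M) ≠ 1 := by
      intro hc
      rw [Nat.card_eq_one_iff_unique] at hc
      exact not_subsingleton (G ⧸ M) hc.1
    obtain ⟨r, hr, hrd⟩ := Nat.exists_prime_and_dvd h1
    by_cases hrM : IsPGroup r M
    · haveI : Fact r.Prime := ⟨hr⟩
      -- another prime
      have h2 : ∃ s : ℕ, s.Prime ∧ s ∣ Nat.card (G ⧸ M) ∧ s ≠ r := by
        by_contra hcon
        push Not at hcon
        apply hnotp r hr
        apply IsPGroup.of_card (n := (Nat.card (G ⧸ M)).primeFactorsList.length)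
        apply Nat.eq_prime_pow_of_unique_prime_dvd Nat.card_pos.ne'
        intro d hd hdd
        exact hcon d hd hdd
      obtain ⟨s, hs, hsd, hsr⟩ := h2
      refine ⟨s, hs, hsd, ?_⟩
      intro hsM
      haveI : Fact s.Prime := ⟨hs⟩
      apply hM1
      rw [Subgroup.eq_bot_iff_forall]
      intro y hy
      obtain ⟨i, hi⟩ := hrM ⟨y, hy⟩
      obtain ⟨j, hj⟩ := hsM ⟨y, hy⟩
      have hi' : y ^ r ^ i = 1 := congrArg Subtype.val hi
      have hj' : y ^ s ^ j = 1 := congrArg Subtype.val hj
      have h6 : (r ^ i).Coprime (s ^ j) :=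
        Nat.Coprime.pow_left i (Nat.Coprime.pow_right j ((Nat.coprime_primes hr hs).2 hsr.symm))
      have h7 := Nat.dvd_gcd (orderOf_dvd_of_pow_eq_one hi') (orderOf_dvd_of_pow_eq_one hj')
      rw [Nat.coprime_iff_gcd_eq_one.1 h6] at h7
      exact orderOf_eq_one_iff.1 (Nat.dvd_one.1 h7)
    · exact ⟨r, hr, hrd, hrM⟩
  haveI : Fact r.Prime := ⟨hr⟩
  obtain ⟨R⟩ : Nonempty (Sylow r G) := inferInstance
  have hRM : ¬ (R : Subgroup G) ≤ M := by
    intro hle
    have h1 : (R : Subgroup G).index = (R : Subgroup G).relIndex M * M.index :=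
      (Subgroup.relIndex_mul_index hle).symm
    have h2 : ¬ r ∣ (R : Subgroup G).index := R.not_dvd_index
    exact h2 (h1 ▸ dvd_mul_of_dvd_right hrdvd _)
  set K : Subgroup G := (R : Subgroup G) ⊔ M with hK
  have hKc : ¬ IsMulCommutative K := by
    intro hc
    apply hRM
    intro g hg
    apply hMC
    intro y hy
    exact comm_iff.1 hc g (Subgroup.mem_sup_left hg) y (Subgroup.mem_sup_right hy)
  have hKn := h K hKc
  have hMK : M ≤ K := le_sup_right
  have hKs : Group.IsSolvable K := by
    haveI : Group.IsSolvable (M.subgroupOf K) := by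
      apply Group.isSolvable_of_comm
      intro a b
      apply Subtype.ext
      apply Subtype.ext
      exact comm_iff.1 hMab _ (Subgroup.mem_subgroupOf.1 a.2) _ (Subgroup.mem_subgroupOf.1 b.2)
    have hRs : Group.IsSolvable (R : Subgroup G) := by
      haveI := R.2.isNilpotent
      infer_instance
    haveI : Group.IsSolvable (K ⧸ M.subgroupOf K) := by
      have h1 : Group.IsSolvable ((R : Subgroup G) ⧸ (M.subgroupOf (R : Subgroup G))) := by
        infer_instance
      have e := QuotientGroup.quotientInfEquivProdNormalQuotient (R : Subgroup G) M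
      exact Group.isSolvable_of_surjective (f := e.toMonoidHom) e.surjective
    exact (Group.isSolvable_iff_subgroup_quotient (M.subgroupOf K)).2
      ⟨inferInstance, inferInstance⟩
  have hKnn : ¬ Group.IsNilpotent K := by
    intro hc
    have hKc' : ¬ IsMulCommutative (⊤ : Subgroup K) := by
      intro h1
      apply hKc
      rw [comm_top] at h1
      exact ⟨⟨h1⟩⟩
    obtain ⟨t, ht, htK⟩ := isPGroup_of_nilpotent (h.subgroup K) hc hKc'
    have hRK : (R : Subgroup G) ≤ K := le_sup_left
    have htr : t = r := by
      -- R ≠ 1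
      have hR1 : ∃ y ∈ (R : Subgroup G), y ≠ 1 := by
        by_contra hcon
        push Not at hcon
        apply hRM
        intro y hy
        rw [hcon y hy]
        exact one_mem _
      obtain ⟨y, hy, hy1⟩ := hR1
      by_contra htr
      apply hy1
      obtain ⟨i, hi⟩ := R.2 ⟨y, hy⟩
      obtain ⟨j, hj⟩ := htK ⟨y, hRK hy⟩
      have hi' : y ^ r ^ i = 1 := congrArg Subtype.val hi
      have hj' : y ^ t ^ j = 1 := congrArg Subtype.val hj
      have h6 : (r ^ i).Coprime (t ^ j) :=
        Nat.Coprime.pow_left i (Nat.Coprime.pow_right j ((Nat.coprime_primes hr ht).2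
          (fun h => htr h.symm)))
      have h7 := Nat.dvd_gcd (orderOf_dvd_of_pow_eq_one hi') (orderOf_dvd_of_pow_eq_one hj')
      rw [Nat.coprime_iff_gcd_eq_one.1 h6] at h7
      exact orderOf_eq_one_iff.1 (Nat.dvd_one.1 h7)
    subst htr
    apply hrM
    exact htK.of_injective (Subgroup.inclusion hMK) (Subgroup.inclusion_injective hMK)
  have hstr : Struct K := (h.subgroup K).struct hKnn
  have hRab : IsMulCommutative (R : Subgroup G) := by
    have h1 : IsMulCommutative ((R : Subgroup G).subgroupOf K) := by
      apply hstr.comm_of_isPGroup (r := r)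
      exact R.2.comap_of_injective K.subtype K.subtype_injective
    rw [comm_iff]
    intro a ha b hb
    have hRK : (R : Subgroup G) ≤ K := le_sup_left
    exact congrArg Subtype.val (comm_iff.1 h1 ⟨a, hRK ha⟩ (Subgroup.mem_subgroupOf.2 ha)
      ⟨b, hRK hb⟩ (Subgroup.mem_subgroupOf.2 hb))
  -- the image in G/M
  let f := QuotientGroup.mk' M
  have hf : Function.Surjective f := QuotientGroup.mk'_surjective M
  have hfR : IsPGroup r ((R : Subgroup G).map f) := R.2.map f
  have hKmap : ((R : Subgroup G).map f).comap f = K := by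
    rw [Subgroup.comap_map_eq, QuotientGroup.ker_mk', hK]
  have hidx : ¬ r ∣ ((R : Subgroup G).map f).index := by
    intro hd
    rw [← Subgroup.index_comap_of_surjective _ hf, hKmap] at hd
    have h1 : (R : Subgroup G).index = (R : Subgroup G).relIndex K * K.index :=
      (Subgroup.relIndex_mul_index (le_sup_left)).symm
    exact R.not_dvd_index (h1 ▸ dvd_mul_of_dvd_right hd _)
  let RR : Sylow r (G ⧸ M) := hfR.toSylow hidx
  have hRRv : (RR : Subgroup (G ⧸ M)) = (R : Subgroup G).map f := rfl
  have hRRab : IsMulCommutative (RR : Subgroup (G ⧸ M)) := by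
    rw [hRRv]
    exact comm_map f hRab
  have hRRn : Subgroup.normalizer ((RR : Subgroup (G ⧸ M)) : Set (G ⧸ M)) ≤
      (RR : Subgroup (G ⧸ M)) := by
    intro y hy
    obtain ⟨y, rfl⟩ := hf y
    have h3 : y ∈ (Subgroup.normalizer ((RR : Subgroup (G ⧸ M)) : Set (G ⧸ M))).comap f := hy
    have h4 := Subgroup.le_normalizer_comap f h3
    rw [hRRv, hKmap, hKn, ← hKmap] at h4
    exact h4
  have hNC : Subgroup.normalizer ((RR : Subgroup (G ⧸ M)) : Set (G ⧸ M)) ≤
      Subgroup.centralizer ((RR : Subgroup (G ⧸ M)) : Set (G ⧸ M)) := by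
    intro y hy
    have hyR := hRRn hy
    rw [Subgroup.mem_centralizer_iff]
    intro z hz
    exact comm_iff.1 hRRab z hz y hyR
  have hcompl := MonoidHom.ker_transferSylow_isComplement' RR hNC
  set L := (MonoidHom.transferSylow RR hNC).ker with hL
  -- G/M is perfect
  have hperf' : commutator (G ⧸ M) = ⊤ := by
    have h1 := Subgroup.map_commutator (⊤ : Subgroup G) ⊤ f
    rw [Subgroup.map_top_of_surjective f hf] at h1
    rw [commutator_def] at hperf ⊢
    rw [← h1, hperf, Subgroup.map_top_of_surjective f hf]
  have hLtop : L = ⊤ := by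
    rw [eq_top_iff, ← hperf']
    letI : CommGroup RR := { (inferInstance : Group RR) with mul_comm := hRRab.is_comm.comm }
    exact Abelianization.commutator_subset_ker (MonoidHom.transferSylow RR hNC)
  have h8 : (RR : Subgroup (G ⧸ M)) = ⊥ := by
    have := hcompl.disjoint
    rw [hLtop] at this
    simpa using this
  apply hRM
  intro y hy
  have h9 : f y ∈ (RR : Subgroup (G ⧸ M)) := ⟨y, hy, rfl⟩
  rw [h8, Subgroup.mem_bot] at h9
  exact (QuotientGroup.eq_one_iff y).1 h9

end

/-- **A finite group in which every non-abelian subgroup is self-normalizing is solvable or simple.** -/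
theorem SelfNorm.solvable_or_simple : ∀ (n : ℕ) (G : Type u) [Group G] [Finite G],
    Nat.card G = n → SelfNorm G → Group.IsSolvable G ∨ IsSimpleGroup G := by
  intro n
  induction n using Nat.strong_induction_on with
  | _ n ih =>
    intro G _ _ hn h
    by_cases hs : Group.IsSolvable G
    · exact Or.inl hs
    right
    have hperf : commutator G = ⊤ := by
      by_contra hc
      have h1 : IsMulCommutative (commutator G) := h.comm_of_normal _ hc
      apply hs
      haveI : Group.IsSolvable (commutator G) := isSolvable_of_comm' h1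
      haveI : Group.IsSolvable (G ⧸ commutator G) := by
        change Group.IsSolvable (Abelianization G)
        infer_instance
      exact (Group.isSolvable_iff_subgroup_quotient (commutator G)).2 ⟨inferInstance, inferInstance⟩
    have hsub : ∀ H : Subgroup G, H ≠ ⊤ → Group.IsSolvable H ∨ IsSimpleGroup H := by
      intro H hH
      apply ih (Nat.card H) _ H rfl (h.subgroup H)
      rw [← hn]
      apply lt_of_le_of_ne (Nat.le_of_dvd Nat.card_pos (Subgroup.card_subgroup_dvd_card H))
      intro hc
      exact hH (Subgroup.eq_top_of_card_eq H hc)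
    by_cases hcen : ∀ N : Subgroup G, N.Normal → N ≠ ⊤ → N ≤ Subgroup.center G
    · exact simple_of_central h hs hperf hcen hsub
    · exfalso
      push Not at hcen
      obtain ⟨N, hN, hNt, hNc⟩ := hcen
      exact not_of_noncentral h hs hperf hN hNt hNc

end Cfsg.Agent.H511
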