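import Mathlib
import Cfsg.Agent.H511.SelfNorm

/-!
# Solvable non-nilpotent groups in which every non-abelian subgroup is self-normalizing
-/

set_option autoImplicit false
set_option linter.style.haveILetI false
set_option linter.unusedSectionVars false

open scoped Pointwise

namespace Cfsg.Agent.H511

open Subgroup

variable {G : Type*} [Group G] [Finite G]

/-- A finite solvable nontrivial group has a normal maximal subgroup of prime index. -/
theorem exists_normal_prime_index [Group.IsSolvable G] [Nontrivial G] :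
    ∃ N : Subgroup G, N.Normal ∧ N.index.Prime := by
  have h1 : commutator G < ⊤ := Group.IsSolvable.commutator_lt_top_of_nontrivial G
  obtain ⟨N, hN1, hN2⟩ := (eq_top_or_exists_le_coatom (commutator G)).resolve_left h1.ne
  have hNn : N.Normal := by
    constructor
    intro n hn g
    have h2 : g * n * g⁻¹ * n⁻¹ ∈ commutator G := by
      have := Subgroup.commutator_mem_commutator (Subgroup.mem_top g) (Subgroup.mem_top n)
      rwa [commutatorElement_def] at this
    have h3 : g * n * g⁻¹ = (g * n * g⁻¹ * n⁻¹) * n := by group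
    rw [h3]
    exact N.mul_mem (hN2 h2) hn
  refine ⟨N, hNn, ?_⟩
  haveI : Nontrivial (G ⧸ N) := by
    rw [QuotientGroup.nontrivial_iff]
    exact hN1.1
  haveI : IsSimpleGroup (G ⧸ N) := by
    constructor
    intro H _
    have hle : N ≤ H.comap (QuotientGroup.mk' N) := by
      intro n hn
      rw [Subgroup.mem_comap, QuotientGroup.mk'_apply, (QuotientGroup.eq_one_iff n).2 hn]
      exact one_mem _
    rcases hle.eq_or_lt with h | h
    · left
      have h4 := Subgroup.map_comap_eq_self_of_surjective (QuotientGroup.mk'_surjective N) H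
      rw [← h, QuotientGroup.map_mk'_self] at h4
      exact h4.symm
    · right
      have h3 := hN1.2 _ h
      have h4 := Subgroup.map_comap_eq_self_of_surjective (QuotientGroup.mk'_surjective N) H
      rw [h3, Subgroup.map_top_of_surjective _ (QuotientGroup.mk'_surjective N)] at h4
      exact h4.symm
  have hcomm : ∀ a b : G ⧸ N, a * b = b * a := by
    intro a b
    obtain ⟨a, rfl⟩ := QuotientGroup.mk_surjective a
    obtain ⟨b, rfl⟩ := QuotientGroup.mk_surjective b
    have h2 : a * b * a⁻¹ * b⁻¹ ∈ commutator G := by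
      have := Subgroup.commutator_mem_commutator (Subgroup.mem_top a) (Subgroup.mem_top b)
      rwa [commutatorElement_def] at this
    have h3 : ((a * b * a⁻¹ * b⁻¹ : G) : G ⧸ N) = 1 := (QuotientGroup.eq_one_iff _).2 (hN2 h2)
    rw [QuotientGroup.mk_mul, QuotientGroup.mk_mul, QuotientGroup.mk_mul, QuotientGroup.mk_inv,
      QuotientGroup.mk_inv, mul_inv_eq_one, mul_inv_eq_iff_eq_mul] at h3
    exact h3
  letI : CommGroup (G ⧸ N) := { (inferInstance : Group (G ⧸ N)) with mul_comm := hcomm }
  exact IsSimpleGroup.prime_card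

/-- the elements of order prime to `p` of an abelian subgroup -/
def primePart (p : ℕ) (N : Subgroup G) (hN : IsMulCommutative N) : Subgroup G where
  carrier := {a | a ∈ N ∧ (orderOf a).Coprime p}
  one_mem' := ⟨N.one_mem, by rw [orderOf_one]; exact Nat.coprime_one_left p⟩
  mul_mem' := by
    rintro a b ⟨ha, ha'⟩ ⟨hb, hb'⟩
    refine ⟨N.mul_mem ha hb, ?_⟩
    have h1 : Commute a b := comm_iff.1 hN a ha b hb
    exact Nat.Coprime.coprime_dvd_left h1.orderOf_mul_dvd_mul_orderOf (Nat.Coprime.mul_left ha' hb')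
  inv_mem' := by
    rintro a ⟨ha, ha'⟩
    exact ⟨N.inv_mem ha, by rwa [orderOf_inv]⟩

theorem mem_primePart {p : ℕ} {N : Subgroup G} {hN : IsMulCommutative N} {a : G} :
    a ∈ primePart p N hN ↔ a ∈ N ∧ (orderOf a).Coprime p := Iff.rfl

theorem primePart_normal {p : ℕ} {N : Subgroup G} [hNn : N.Normal] {hN : IsMulCommutative N} :
    (primePart p N hN).Normal := by
  constructor
  rintro a ⟨ha, ha'⟩ g
  refine ⟨hNn.conj_mem a ha g, ?_⟩
  have h1 : orderOf (g * a * g⁻¹) = orderOf a := by
    have := orderOf_injective (MulAut.conj g).toMonoidHom (MulAut.conj g).injective a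
    simpa using this
  rwa [h1]

theorem SelfNorm.struct [Group.IsSolvable G] (hnn : ¬ Group.IsNilpotent G) (h : SelfNorm G) :
    Struct G := by
  haveI : Nontrivial G := by
    by_contra hc
    rw [not_nontrivial_iff_subsingleton] at hc
    exact hnn inferInstance
  obtain ⟨N, hNn, hp⟩ := exists_normal_prime_index (G := G)
  obtain ⟨p, hpN⟩ : ∃ p : ℕ, N.index = p := ⟨_, rfl⟩
  rw [hpN] at hp
  haveI : Fact p.Prime := ⟨hp⟩
  have hNt : N ≠ ⊤ := by
    rintro rfl
    rw [Subgroup.index_top] at hpN
    exact hp.one_lt.ne hpN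
  have hNc : IsMulCommutative N := h.comm_of_normal N hNt
  have hNc' := comm_iff.1 hNc
  obtain ⟨P⟩ : Nonempty (Sylow p G) := inferInstance
  have hPN : ¬ (P : Subgroup G) ≤ N := by
    intro hle
    have h1 : (P : Subgroup G).index = (P : Subgroup G).relIndex N * N.index :=
      (Subgroup.relIndex_mul_index hle).symm
    have h2 : ¬ p ∣ (P : Subgroup G).index := P.not_dvd_index
    rw [hpN] at h1
    exact h2 (h1 ▸ dvd_mul_left p _)
  obtain ⟨x, hxP, hxN⟩ := SetLike.not_le_iff_exists.1 hPN
  have hpowN : ∀ g : G, g ^ p ∈ N := by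
    intro g
    rw [← hpN]
    exact Subgroup.pow_index_mem N g
  -- every element is x ^ i * n
  have hgenN : ∀ g : G, ∃ i : ℤ, ∃ n ∈ N, g = x ^ i * n := by
    intro g
    have hcard : Nat.card (G ⧸ N) = p := hpN
    have hx1 : (x : G ⧸ N) ≠ 1 := fun hc => hxN ((QuotientGroup.eq_one_iff x).1 hc)
    have h1 : (g : G ⧸ N) ∈ Subgroup.zpowers (x : G ⧸ N) :=
      mem_zpowers_of_prime_card hcard hx1
    obtain ⟨i, hi⟩ := Subgroup.mem_zpowers_iff.1 h1
    refine ⟨i, x⁻¹ ^ i * g, ?_, by rw [inv_zpow]; group⟩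
    rw [← QuotientGroup.eq_one_iff, QuotientGroup.mk_mul, QuotientGroup.mk_zpow,
      QuotientGroup.mk_inv, ← hi]
    group
  obtain ⟨k, hk⟩ : ∃ k : ℕ, orderOf x = p ^ k := by
    obtain ⟨k, hk⟩ := P.2 ⟨x, hxP⟩
    have hk' : x ^ p ^ k = 1 := congrArg Subtype.val hk
    obtain ⟨j, -, hj⟩ := (Nat.dvd_prime_pow hp).1 (orderOf_dvd_of_pow_eq_one hk')
    exact ⟨j, hj⟩
  let A : Subgroup G := primePart p N hNc
  haveI hAn : A.Normal := primePart_normal
  have hAN : A ≤ N := fun a ha => ha.1
  have hAc : IsMulCommutative A := comm_mono hAN hNc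
  have hpA : ¬ p ∣ Nat.card A := by
    intro hc
    obtain ⟨a, ha⟩ := exists_prime_orderOf_dvd_card' p hc
    have h1 : (orderOf (a : G)).Coprime p := a.2.2
    rw [Subgroup.orderOf_coe, ha, Nat.coprime_self] at h1
    exact hp.one_lt.ne' h1
  -- the p-elements of A are trivial
  have hA1 : ∀ a ∈ A, ∀ j : ℕ, a ^ p ^ j = 1 → a = 1 := by
    intro a ha j hj
    have h1 : (orderOf a).Coprime p := ha.2
    have h2 : orderOf a ∣ p ^ j := orderOf_dvd_of_pow_eq_one hj
    have h3 : orderOf a = 1 := Nat.Coprime.eq_one_of_dvd (Nat.Coprime.pow_right j h1) h2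
    exact orderOf_eq_one_iff.1 h3
  -- card P * card A = card G
  have hpowA : ∀ g : G, ∃ j : ℕ, g ^ p ^ j ∈ A := by
    intro g
    let n := orderOf g
    have hn : n ≠ 0 := (orderOf_pos g).ne'
    refine ⟨(orderOf g).factorization p + 1, ?_, ?_⟩
    · rw [pow_succ', pow_mul]
      exact N.pow_mem (hpowN g) _
    · have h1 : orderOf (g ^ p ^ ((orderOf g).factorization p + 1)) ∣
          orderOf g / p ^ ((orderOf g).factorization p) := by
        apply orderOf_dvd_of_pow_eq_one
        rw [← pow_mul, pow_succ, mul_assoc, mul_comm p, ← mul_assoc,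
          Nat.ordProj_mul_ordCompl_eq_self, pow_mul, pow_orderOf_eq_one, one_pow]
      exact Nat.Coprime.coprime_dvd_left h1 (Nat.coprime_ordCompl hp hn).symm
  have hquot : IsPGroup p (G ⧸ A) := by
    intro g
    obtain ⟨g, rfl⟩ := QuotientGroup.mk_surjective g
    obtain ⟨j, hj⟩ := hpowA g
    exact ⟨j, by rw [← QuotientGroup.mk_pow]; exact (QuotientGroup.eq_one_iff _).2 hj⟩
  -- P ∩ A = 1
  have hPA : ∀ y ∈ (P : Subgroup G), y ∈ A → y = 1 := by
    intro y hy hyA
    obtain ⟨j, hj⟩ := P.2 ⟨y, hy⟩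
    exact hA1 y hyA j (congrArg Subtype.val hj)
  have hxle : Subgroup.zpowers x ≤ (P : Subgroup G) := by
    rw [Subgroup.zpowers_le]
    exact hxP
  -- x does not centralize A
  have hxA : ¬ ∀ a ∈ A, x * a = a * x := by
    intro hc
    apply hnn
    have hcen : A ≤ Subgroup.center G := by
      intro a ha
      rw [Subgroup.mem_center_iff]
      intro g
      obtain ⟨i, n, hn, rfl⟩ := hgenN g
      have h1 : Commute x a := hc a ha
      have h2 : Commute n a := hNc' n hn a (hAN ha)
      exact ((h1.zpow_left i).mul_left h2).eq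
    haveI : Group.IsNilpotent (G ⧸ A) := hquot.isNilpotent
    exact Subgroup.isNilpotent_of_ker_le_center (QuotientGroup.mk' A)
      (by rw [QuotientGroup.ker_mk']; exact hcen)
  -- P = ⟨x⟩
  have hPx : (P : Subgroup G) ≤ Subgroup.zpowers x := by
    by_contra hcon
    have hlt : Subgroup.zpowers x < (P : Subgroup G) := lt_of_le_not_ge hxle hcon
    haveI : Group.IsNilpotent P := P.2.isNilpotent
    have hnc : NormalizerCondition P := Group.normalizerCondition_of_isNilpotent
    have h1 : (Subgroup.zpowers x).subgroupOf P < ⊤ := by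
      rw [lt_top_iff_ne_top]
      intro h2
      rw [Subgroup.subgroupOf_eq_top] at h2
      exact hcon h2
    have h2 := hnc _ h1
    obtain ⟨y, hy1, hy2⟩ := SetLike.exists_of_lt h2
    have hyx : (y : G) ∉ Subgroup.zpowers x := by
      intro h3
      exact hy2 (Subgroup.mem_subgroupOf.2 h3)
    have hyN : (y : G) ∈ Subgroup.normalizer ((Subgroup.zpowers x : Subgroup G) : Set G) := by
      rw [← Subgroup.subgroupOf_normalizer_eq hxle] at hy1
      exact Subgroup.mem_subgroupOf.1 hy1
    let H : Subgroup G := Subgroup.zpowers x ⊔ A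
    have hHc : ¬ IsMulCommutative H := by
      intro hc
      apply hxA
      intro a ha
      exact comm_iff.1 hc x (Subgroup.mem_sup_left (Subgroup.mem_zpowers x)) a
        (Subgroup.mem_sup_right ha)
    have hHn := h H hHc
    have hyH : (y : G) ∈ H := by
      rw [← hHn, Subgroup.mem_normalizer_iff_map_conj_eq, Subgroup.map_sup]
      rw [Subgroup.mem_normalizer_iff_map_conj_eq] at hyN
      rw [hyN]
      congr 1
      exact Subgroup.mem_normalizer_iff_map_conj_eq.1
        (by rw [Subgroup.normalizer_eq_top]; exact Subgroup.mem_top _)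
    obtain ⟨z, hz, a, ha, hza⟩ := Subgroup.mem_sup_of_normal_right.1 hyH
    have ha1 : a = 1 := by
      apply hPA a _ ha
      have h4 : a = z⁻¹ * y := by rw [← hza]; group
      rw [h4]
      exact (P : Subgroup G).mul_mem ((P : Subgroup G).inv_mem (hxle hz)) y.2
    rw [ha1, mul_one] at hza
    exact hyx (hza ▸ hz)
  have hPeq : Subgroup.zpowers x = (P : Subgroup G) := le_antisymm hxle hPx
  have hcard : Nat.card (Subgroup.zpowers x) * Nat.card A = Nat.card G := by
    rw [hPeq]
    have h1 : Nat.card (P : Subgroup G) = A.index := by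
      obtain ⟨j, hj⟩ := IsPGroup.iff_card.1 hquot
      have h2 : Nat.card G = p ^ j * Nat.card A := by
        rw [← Subgroup.card_mul_index A, mul_comm]
        congr 1
      have hA0 : Nat.card A ≠ 0 := Nat.card_pos.ne'
      rw [P.card_eq_multiplicity, h2, Nat.factorization_mul (pow_ne_zero _ hp.ne_zero) hA0]
      rw [show A.index = p ^ j from hj]
      congr 1
      rw [Finsupp.add_apply, hp.factorization_pow, Finsupp.single_eq_same,
        Nat.factorization_eq_zero_of_not_dvd hpA, add_zero]
    rw [h1, mul_comm, Subgroup.card_mul_index]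
  have hcop : (Nat.card (Subgroup.zpowers x)).Coprime (Nat.card A) := by
    rw [Nat.card_zpowers, hk]
    exact Nat.Coprime.pow_left k ((Nat.Prime.coprime_iff_not_dvd hp).2 hpA)
  have hcompl : (Subgroup.zpowers x).IsComplement' A :=
    Subgroup.isComplement'_of_coprime hcard hcop
  have hgen : ∀ g : G, ∃ (i : ℤ), ∃ a ∈ A, g = x ^ i * a := by
    intro g
    obtain ⟨⟨⟨_, ⟨i, rfl⟩⟩, ⟨a, ha⟩⟩, h1⟩ := hcompl.surjective g
    exact ⟨i, a, ha, h1.symm⟩
  -- the commutator map
  have hcube : ∀ a ∈ A, x * (x * a * x⁻¹ * a⁻¹) = (x * a * x⁻¹ * a⁻¹) * x → x * a = a * x := by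
    intro a ha hc
    set b := x * a * x⁻¹ * a⁻¹ with hb
    have hbA : b ∈ A := A.mul_mem (hAn.conj_mem a ha x) (A.inv_mem ha)
    have h1 : ∀ n : ℕ, x ^ n * a * (x ^ n)⁻¹ = b ^ n * a := by
      intro n
      induction n with
      | zero => simp
      | succ n ih =>
        have hc' : Commute x (b ^ n) := (show Commute x b from hc).pow_right n
        calc x ^ (n + 1) * a * (x ^ (n + 1))⁻¹ = x * (x ^ n * a * (x ^ n)⁻¹) * x⁻¹ := by
              rw [pow_succ']; group
          _ = x * (b ^ n * a) * x⁻¹ := by rw [ih]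
          _ = (x * b ^ n) * a * x⁻¹ := by group
          _ = (b ^ n * x) * a * x⁻¹ := by rw [hc'.eq]
          _ = b ^ n * (x * a * x⁻¹ * a⁻¹) * a := by group
          _ = b ^ (n + 1) * a := by rw [← hb, pow_succ]
    have h2 := h1 (p ^ k)
    rw [← hk, pow_orderOf_eq_one, hk] at h2
    have h3 : b ^ p ^ k = 1 := by
      have : a = b ^ p ^ k * a := by simpa using h2
      exact (mul_eq_right.1 this.symm)
    have h4 := hA1 b hbA k h3
    rw [hb, mul_inv_eq_one, mul_inv_eq_iff_eq_mul] at h4
    exact h4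
  have hfix : ∀ a : G, a ∈ A → a ≠ 1 → x * a * x⁻¹ ≠ a := by
    intro a ha ha1 hfa
    apply ha1
    have hxa : x * a = a * x := mul_inv_eq_iff_eq_mul.1 hfa
    -- B = [A, x]
    let φ : A →* A :=
      { toFun := fun c => ⟨x * c * x⁻¹ * (c : G)⁻¹,
          A.mul_mem (hAn.conj_mem c c.2 x) (A.inv_mem c.2)⟩
        map_one' := by
          apply Subtype.ext
          simp
        map_mul' := by
          intro c d
          apply Subtype.ext
          have hc1 : x * (c : G) * x⁻¹ ∈ A := hAn.conj_mem c c.2 x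
          have hd1 : x * (d : G) * x⁻¹ ∈ A := hAn.conj_mem d d.2 x
          have hAc' := comm_iff.1 hAc
          change x * ((c : G) * d) * x⁻¹ * ((c : G) * d)⁻¹ =
            (x * c * x⁻¹ * (c : G)⁻¹) * (x * d * x⁻¹ * (d : G)⁻¹)
          calc x * ((c : G) * d) * x⁻¹ * ((c : G) * d)⁻¹
              = (x * c * x⁻¹) * (((x * d * x⁻¹) * (d : G)⁻¹) * (c : G)⁻¹) := by group
            _ = (x * c * x⁻¹) * ((c : G)⁻¹ * ((x * d * x⁻¹) * (d : G)⁻¹)) := by
              rw [hAc' _ (A.mul_mem hd1 (A.inv_mem d.2)) _ (A.inv_mem c.2)]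
            _ = _ := by group }
    have hφv : ∀ c : A, ((φ c : A) : G) = x * c * x⁻¹ * (c : G)⁻¹ := fun c => rfl
    let B : Subgroup G := φ.range.map A.subtype
    have hBA : B ≤ A := Subgroup.map_subtype_le _
    have hmemB : ∀ b : G, b ∈ B ↔ ∃ c : A, x * c * x⁻¹ * (c : G)⁻¹ = b := by
      intro b
      constructor
      · rintro ⟨_, ⟨c, rfl⟩, rfl⟩
        exact ⟨c, rfl⟩
      · rintro ⟨c, rfl⟩
        exact ⟨φ c, ⟨c, rfl⟩, rfl⟩
    let H : Subgroup G := Subgroup.zpowers x ⊔ B
    have hHc : ¬ IsMulCommutative H := by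
      intro hc
      apply hxA
      intro c hcA
      apply hcube c hcA
      exact comm_iff.1 hc x (Subgroup.mem_sup_left (Subgroup.mem_zpowers x)) _
        (Subgroup.mem_sup_right ((hmemB _).2 ⟨⟨c, hcA⟩, rfl⟩))
    have hHn := h H hHc
    -- a normalizes H
    have haC : ∀ g ∈ H, Commute a g := by
      intro g hg
      have hle : H ≤ Subgroup.centralizer {a} := by
        apply sup_le
        · rw [Subgroup.zpowers_le, Subgroup.mem_centralizer_singleton_iff]
          exact hxa
        · intro b hb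
          rw [Subgroup.mem_centralizer_singleton_iff]
          exact comm_iff.1 hAc b (hBA hb) a ha
      have := Subgroup.mem_centralizer_singleton_iff.1 (hle hg)
      first | exact this | exact this.symm
    have haH : a ∈ H := by
      rw [← hHn, Subgroup.mem_normalizer_iff]
      intro g
      constructor
      · intro hg
        rw [(haC g hg).eq]
        simpa using hg
      · intro hg
        have h5 := haC _ hg
        have h6 : a * g * a⁻¹ = g := by
          have h7 : a * (a * g * a⁻¹) = (a * g * a⁻¹) * a := h5.eq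
          have h8 : a * (a * g * a⁻¹) = a * g := by rw [h7]; group
          exact mul_left_cancel h8
        rwa [h6] at hg
    -- elements of H are x ^ i * b
    have hBx : ∀ b ∈ B, x * b * x⁻¹ ∈ B := by
      intro b hb
      obtain ⟨c, rfl⟩ := (hmemB b).1 hb
      refine (hmemB _).2 ⟨⟨x * c * x⁻¹, hAn.conj_mem c c.2 x⟩, ?_⟩
      change x * (x * (c : G) * x⁻¹) * x⁻¹ * (x * (c : G) * x⁻¹)⁻¹ = _
      group
    have hxNB : x ∈ Subgroup.normalizer (B : Set G) := by
      rw [Subgroup.mem_normalizer_iff_map_conj_eq]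
      apply Subgroup.eq_of_le_of_card_ge
      · rintro _ ⟨b, hb, rfl⟩
        exact hBx b hb
      · exact (Subgroup.card_map_of_injective (K := B) (f := (MulAut.conj x).toMonoidHom)
          (MulAut.conj x).injective).ge
    have hle : Subgroup.zpowers x ≤ Subgroup.normalizer (B : Set G) := by
      rw [Subgroup.zpowers_le]
      exact hxNB
    have haH2 : a ∈ ((Subgroup.zpowers x : Subgroup G) : Set G) * (B : Set G) := by
      rw [← Subgroup.coe_mul_of_left_le_normalizer_right _ _ hle]
      exact haH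
    obtain ⟨z, hz, b, hb, hzb⟩ := Set.mem_mul.1 haH2
    have hz1 : z = 1 := by
      apply hPA z (hxle hz)
      have h4 : z = a * b⁻¹ := by rw [← hzb]; group
      rw [h4]
      exact A.mul_mem ha (A.inv_mem (hBA hb))
    rw [hz1, one_mul] at hzb
    obtain ⟨c, hc⟩ := (hmemB b).1 hb
    have h5 := hcube c c.2 (by rw [hc, hzb]; exact hxa)
    rw [← hzb, ← hc, h5]
    group
  refine ⟨x, A, p, hp, hAn, hAc, ⟨k, hk⟩, hpA, hcompl, ?_, hfix⟩
  rw [Subgroup.mem_center_iff]
  intro g
  obtain ⟨i, a, ha, rfl⟩ := hgen g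
  have h1 : Commute a (x ^ p) := hNc' a (hAN ha) _ (hpowN x)
  have h2 : Commute (x ^ i) (x ^ p) := (Commute.refl x).zpow_left i |>.pow_right p
  exact (h2.mul_left h1).eq

end Cfsg.Agent.H511
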